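import Mathlib
import Cfsg.Agent.Lib.Helper33.U5.Defs

/-! Ladder U5 (S3171), rung CX: the orders of `X` and `W`. -/

set_option autoImplicit false

namespace Cfsg.Agent.Lib.Helper33.U5

/-- `X` as a product of nine copies of `ZMod 2`. -/
def cxEquivX : X ≃
    (ZMod 2 × ZMod 2 × ZMod 2 × ZMod 2 × ZMod 2 × ZMod 2 × ZMod 2 × ZMod 2 × ZMod 2) where
  toFun := fun ⟨a, b, c, d, e, f, g, h, i⟩ => ⟨a, b, c, d, e, f, g, h, i⟩
  invFun := fun ⟨a, b, c, d, e, f, g, h, i⟩ => ⟨a, b, c, d, e, f, g, h, i⟩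
  left_inv := fun _ => rfl
  right_inv := fun _ => rfl

/-- `W` as a product of ten copies of `ZMod 2`. -/
def cxEquivW : W ≃
    (ZMod 2 × ZMod 2 × ZMod 2 × ZMod 2 × ZMod 2 × ZMod 2 × ZMod 2 × ZMod 2 × ZMod 2 × ZMod 2) where
  toFun := fun ⟨a, b, c, d, e, f, g, h, i, j⟩ => ⟨a, b, c, d, e, f, g, h, i, j⟩
  invFun := fun ⟨a, b, c, d, e, f, g, h, i, j⟩ => ⟨a, b, c, d, e, f, g, h, i, j⟩
  left_inv := fun _ => rfl
  right_inv := fun _ => rfl

theorem card_X : Nat.card X = 512 := by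
  rw [Nat.card_congr cxEquivX]
  simp only [Nat.card_prod, Nat.card_zmod]

theorem card_W : Nat.card W = 1024 := by
  rw [Nat.card_congr cxEquivW]
  simp only [Nat.card_prod, Nat.card_zmod]

end Cfsg.Agent.Lib.Helper33.U5
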