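import Cfsg.Agent.Lib.Helper33.U5.P1C
import Cfsg.Agent.Lib.Helper3.PGroup

set_option autoImplicit false

namespace Cfsg.Agent.Lib.Helper33.U5

theorem p1_card_X : Nat.card X = 512 := by
  rw [Nat.card_eq_fintype_card]
  decide +kernel

/-- the set of the first alternative of `p1c` -/
def p1S : Finset X := Finset.univ.filter fun z =>
  z.x01 = 0 ∧ z.x12 = 0 ∧ z.x23 = 0 ∧ z.x34 = 0 ∧ z.x13 = 0 ∧ z.x02 * z.x24 = 0

theorem p1_card_S : p1S.card = 12 := by
  decide +kernel

theorem phi1 (M : Subgroup X) (hM : IsCoatom M) : Nat.card ↥(Subgroup.center ↥M) ≤ 8 := by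
  have : Fact (Nat.Prime 2) := ⟨Nat.prime_two⟩
  have hP : IsPGroup 2 X := IsPGroup.of_card (n := 9) (by rw [p1_card_X]; norm_num)
  have hidx : M.index = 2 := Cfsg.Agent.Lib.Helper3.coatom_index hP hM
  -- elements of the centre lie in `p1S`
  have hmem : ∀ z : ↥(Subgroup.center ↥M), ((z : ↥M) : X) ∈ p1S := by
    intro z
    have hz : ∀ g : X, g ∈ M → g * ((z : ↥M) : X) = ((z : ↥M) : X) * g := by
      intro g hg
      have := Subgroup.mem_center_iff.1 z.2 ⟨g, hg⟩
      exact congrArg Subtype.val this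
    rcases p1c ((z : ↥M) : X) with h | ⟨g₁, g₂, h1, h2, h3⟩
    · simpa [p1S] using h
    · exfalso
      have hg1 : g₁ ∉ M := fun h => h1 (hz _ h)
      have hg2 : g₂ ∉ M := fun h => h2 (hz _ h)
      have hg1' : g₁⁻¹ ∉ M := fun h => hg1 (by simpa using M.inv_mem h)
      have : g₁⁻¹ * g₂ ∈ M := by
        rw [Subgroup.mul_mem_iff_of_index_two hidx]
        exact ⟨fun h => absurd h hg1', fun h => absurd h hg2⟩
      exact h3 (hz _ this)
  have hle : Nat.card ↥(Subgroup.center ↥M) ≤ 12 := by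
    have hinj : Function.Injective
        (fun z : ↥(Subgroup.center ↥M) => (⟨((z : ↥M) : X), hmem z⟩ : ↥p1S)) := by
      intro a b hab
      have : ((a : ↥M) : X) = ((b : ↥M) : X) := by
        simpa using hab
      exact Subtype.ext (Subtype.ext this)
    have h := Nat.card_le_card_of_injective _ hinj
    rw [Nat.card_eq_fintype_card (α := ↥p1S), Fintype.card_coe, p1_card_S] at h
    exact h
  have hdvd : Nat.card ↥(Subgroup.center ↥M) ∣ 2 ^ 9 := by
    have h1 : Nat.card ↥(Subgroup.center ↥M) ∣ Nat.card ↥M := Subgroup.card_subgroup_dvd_card _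
    have h2 : Nat.card ↥M ∣ Nat.card X := Subgroup.card_subgroup_dvd_card _
    rw [p1_card_X] at h2
    exact h1.trans (by simpa using h2)
  obtain ⟨k, hk, hk2⟩ := (Nat.dvd_prime_pow Nat.prime_two).1 hdvd
  rw [hk2] at hle ⊢
  interval_cases k <;> omega

end Cfsg.Agent.Lib.Helper33.U5
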