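import Cfsg.Agent.Lib.Helper33.U5.Defs

/-! Ladder U5, rung P1C: a certificate on non-commuting elements. -/

set_option autoImplicit false

namespace Cfsg.Agent.Lib.Helper33.U5

/-- the nine elementary elements. -/
def p1cL : List X :=
  [⟨1, 0, 0, 0, 0, 0, 0, 0, 0⟩, ⟨0, 1, 0, 0, 0, 0, 0, 0, 0⟩, ⟨0, 0, 1, 0, 0, 0, 0, 0, 0⟩,
   ⟨0, 0, 0, 1, 0, 0, 0, 0, 0⟩, ⟨0, 0, 0, 0, 1, 0, 0, 0, 0⟩, ⟨0, 0, 0, 0, 0, 1, 0, 0, 0⟩,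
   ⟨0, 0, 0, 0, 0, 0, 1, 0, 0⟩, ⟨0, 0, 0, 0, 0, 0, 0, 1, 0⟩, ⟨0, 0, 0, 0, 0, 0, 0, 0, 1⟩]

theorem p1c_dec : ∀ z : X,
    (z.x01 = 0 ∧ z.x12 = 0 ∧ z.x23 = 0 ∧ z.x34 = 0 ∧ z.x13 = 0 ∧ z.x02 * z.x24 = 0) ∨
    ∃ g₁ ∈ p1cL, ∃ g₂ ∈ p1cL,
      g₁ * z ≠ z * g₁ ∧ g₂ * z ≠ z * g₂ ∧ (g₁⁻¹ * g₂) * z ≠ z * (g₁⁻¹ * g₂) := by
  decide +kernel

theorem p1c (z : X) : (z.x01 = 0 ∧ z.x12 = 0 ∧ z.x23 = 0 ∧ z.x34 = 0 ∧ z.x13 = 0 ∧ z.x02 * z.x24 = 0) ∨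
    ∃ g₁ g₂ : X, g₁ * z ≠ z * g₁ ∧ g₂ * z ≠ z * g₂ ∧ (g₁⁻¹ * g₂) * z ≠ z * (g₁⁻¹ * g₂) := by
  rcases p1c_dec z with h | ⟨g₁, _, g₂, _, h⟩
  · exact Or.inl h
  · exact Or.inr ⟨g₁, g₂, h⟩

end Cfsg.Agent.Lib.Helper33.U5
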