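import Cfsg.Agent.Lib.Helper33.U5.Defs

set_option autoImplicit false

namespace Cfsg.Agent.Lib.Helper33.U5

instance p2Dec : DecidablePred (· ∈ A0) := fun _ => decidable_of_iff _ mem_A0.symm

theorem p2_card : Fintype.card ↥A0 = 64 := by
  rw [Fintype.card_subtype]
  decide +kernel

/-- P2. -/
theorem phi2 : Cfsg.IsElementaryAbelian 2 A0 ∧ Nat.card ↥A0 = 64 := by
  refine ⟨⟨⟨⟨?_⟩⟩, ?_⟩, ?_⟩
  · rintro ⟨a, ha⟩ ⟨b, hb⟩
    apply Subtype.ext
    obtain ⟨h1, h2, h3⟩ := mem_A0.1 ha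
    obtain ⟨h4, h5, h6⟩ := mem_A0.1 hb
    show a * b = b * a
    ext <;> simp [h1, h2, h3, h4, h5, h6] <;> ring
  · intro a ha
    obtain ⟨h1, h2, h3⟩ := mem_A0.1 ha
    rw [pow_two]
    ext <;> simp [h1, h2, h3, CharTwo.add_self_eq_zero]
  · rw [Nat.card_eq_fintype_card]
    exact p2_card

end Cfsg.Agent.Lib.Helper33.U5
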