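import Cfsg.Agent.Lib.Helper33.U5.P3K

/-! Ladder U5, rung P3G: an abelian subgroup of order 64 of `X` is `A0`. -/

set_option autoImplicit false

namespace Cfsg.Agent.Lib.Helper33.U5

/-- the middle entries. -/
def p3gMu (a : X) : ZMod 2 × ZMod 2 × ZMod 2 := (a.x12, a.x23, a.x13)

theorem p3g_card_A0 : Nat.card ↥A0 = 64 := by
  have h1 : (Finset.univ.filter (fun a : X => a.x12 = 0 ∧ a.x23 = 0 ∧ a.x13 = 0)).card = 64 := by
    decide +kernel
  have h2 : (A0 : Set X) =
      ↑(Finset.univ.filter (fun a : X => a.x12 = 0 ∧ a.x23 = 0 ∧ a.x13 = 0)) := by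
    ext a
    simp [mem_A0]
  calc Nat.card ↥A0 = (A0 : Set X).ncard := rfl
    _ = 64 := by rw [h2, Set.ncard_coe_finset, h1]

theorem p3g_four : ∀ I : Finset (ZMod 2 × ZMod 2 × ZMod 2),
    (∀ u ∈ I, ∀ v ∈ I, u.1 * v.2.1 = v.1 * u.2.1) → I.card ≤ 4 := by
  decide +kernel

theorem p3g_cancel : ∀ a b c d : ZMod 2, a + b + c = b + a + d → c = d := by decide

theorem phi3 (A : Subgroup X) (hA : IsMulCommutative ↥A) (hc : Nat.card ↥A = 64) : A = A0 := by
  classical
  have hcomm : ∀ a ∈ A, ∀ b ∈ A, a * b = b * a := by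
    intro a ha b hb
    exact congrArg Subtype.val (hA.is_comm.comm (⟨a, ha⟩ : A) ⟨b, hb⟩)
  have hle : A ≤ A0 := by
    by_contra hnle
    obtain ⟨x, hxA, hx0⟩ := SetLike.not_le_iff_exists.mp hnle
    obtain ⟨AF, hAF⟩ : ∃ AF : Finset X, AF = Finset.univ.filter (· ∈ A) := ⟨_, rfl⟩
    obtain ⟨KF, hKF⟩ : ∃ KF : Finset X, KF = Finset.univ.filter (· ∈ A ⊓ A0) := ⟨_, rfl⟩
    have hmemA : ∀ a, a ∈ AF ↔ a ∈ A := by intro a; rw [hAF]; simp
    have hmemK : ∀ a, a ∈ KF ↔ a ∈ A ⊓ A0 := by intro a; rw [hKF]; simp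
    have hAFc : AF.card = 64 := by
      rw [← hc]
      have h2 : (A : Set X) = ↑AF := by ext a; simp [hmemA]
      calc AF.card = (↑AF : Set X).ncard := (Set.ncard_coe_finset AF).symm
        _ = Nat.card ↥A := by rw [← h2]; rfl
    have hKFc : KF.card = Nat.card ↥(A ⊓ A0) := by
      have h2 : ((A ⊓ A0 : Subgroup X) : Set X) = ↑KF := by
        ext a
        rw [Finset.mem_coe, hmemK]; rfl
      calc KF.card = (↑KF : Set X).ncard := (Set.ncard_coe_finset KF).symm
        _ = Nat.card ↥(A ⊓ A0) := by rw [← h2]; rfl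
    have hfib : AF.card ≤ KF.card * (AF.image p3gMu).card := by
      apply Finset.card_le_mul_card_image
      intro b hb
      obtain ⟨a₀, ha₀, rfl⟩ := Finset.mem_image.mp hb
      apply Finset.card_le_card_of_injOn (fun y => a₀⁻¹ * y)
      · intro y hy
        rw [Finset.mem_coe, Finset.mem_filter] at hy
        rw [Finset.mem_coe, hmemK]
        refine ⟨A.mul_mem (A.inv_mem ((hmemA _).mp ha₀)) ((hmemA _).mp hy.1), ?_⟩
        show a₀⁻¹ * y ∈ A0
        rw [p3k_inv_mul_mem]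
        have h3 := hy.2
        unfold p3gMu at h3
        simp only [Prod.mk.injEq] at h3
        exact ⟨h3.1.symm, h3.2.1.symm, h3.2.2.symm⟩
      · intro y _ y' _ h
        exact mul_left_cancel h
    have hI4 : (AF.image p3gMu).card ≤ 4 := by
      apply p3g_four
      intro u hu v hv
      obtain ⟨a, ha, rfl⟩ := Finset.mem_image.mp hu
      obtain ⟨b, hb, rfl⟩ := Finset.mem_image.mp hv
      have h3 := congrArg X.x13 (hcomm a ((hmemA _).mp ha) b ((hmemA _).mp hb))
      simp only [X.mul_x13] at h3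
      exact p3g_cancel _ _ _ _ h3
    have hKc : ∀ y ∈ A, ∀ a ∈ A ⊓ A0, a * y = y * a := fun y hy a ha => hcomm a ha.1 y hy
    by_cases hex : ∃ y ∈ A, y ∉ A0 ∧ x⁻¹ * y ∉ A0
    · obtain ⟨y, hyA, hy0, hxy⟩ := hex
      have h8 := p3k2 x y hx0 hy0 hxy (A ⊓ A0) inf_le_right (hKc x hxA) (hKc y hyA)
      rw [← hKFc] at h8
      have : KF.card * (AF.image p3gMu).card ≤ 8 * 4 := Nat.mul_le_mul h8 hI4
      omega
    · push Not at hex
      have h16 := p3k1 x hx0 (A ⊓ A0) inf_le_right (hKc x hxA)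
      rw [← hKFc] at h16
      have hI2 : (AF.image p3gMu).card ≤ 2 := by
        have hsub : AF.image p3gMu ⊆ {((0 : ZMod 2), (0 : ZMod 2), (0 : ZMod 2)), p3gMu x} := by
          intro u hu
          obtain ⟨y, hy, rfl⟩ := Finset.mem_image.mp hu
          rw [Finset.mem_insert, Finset.mem_singleton]
          by_cases hy0 : y ∈ A0
          · left
            obtain ⟨h1, h2, h3⟩ := mem_A0.mp hy0
            unfold p3gMu
            rw [h1, h2, h3]
          · right
            have h4 := hex y ((hmemA _).mp hy) hy0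
            obtain ⟨h1, h2, h3⟩ := (p3k_inv_mul_mem x y).mp h4
            unfold p3gMu
            rw [h1, h2, h3]
        exact (Finset.card_le_card hsub).trans Finset.card_le_two
      have : KF.card * (AF.image p3gMu).card ≤ 16 * 2 := Nat.mul_le_mul h16 hI2
      omega
  exact Subgroup.eq_of_le_of_card_ge hle (by rw [hc, p3g_card_A0])

end Cfsg.Agent.Lib.Helper33.U5
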