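import Cfsg.Agent.Lib.Helper33.U5.Defs

/-! Ladder U5, rung P3K: centraliser counts in `A0`. -/

set_option autoImplicit false

namespace Cfsg.Agent.Lib.Helper33.U5

/-- the elements of `A0` commuting with an element with middle entries `p q r`. -/
def p3kT (p q r : ZMod 2) : Finset X :=
  Finset.univ.filter (fun a : X => a.x12 = 0 ∧ a.x23 = 0 ∧ a.x13 = 0 ∧ a.x01 * p = 0 ∧
    a.x01 * q + a.x02 * r = 0 ∧ p * a.x24 + q * a.x34 = 0 ∧ r * a.x34 = 0)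

theorem p3k_card1 : ∀ p q r : ZMod 2, ¬ (p = 0 ∧ r = 0 ∧ q = 0) → (p3kT p q r).card ≤ 16 := by
  decide +kernel

theorem p3k_card2 : ∀ p q r p' q' r' : ZMod 2, ¬ (p = 0 ∧ r = 0 ∧ q = 0) →
    ¬ (p' = 0 ∧ r' = 0 ∧ q' = 0) → ¬ (p = p' ∧ r = r' ∧ q = q') →
    (p3kT p q r ∩ p3kT p' q' r').card ≤ 8 := by
  decide +kernel

theorem p3k_cancel : ∀ u v w : ZMod 2, u + v + w = v + u → w = 0 := by decide

theorem p3k_cancel2 : ∀ u v w w' : ZMod 2, u + v + w + w' = v + u → w + w' = 0 := by decide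

theorem p3k_mem (x a : X) (ha : a ∈ A0) (hc : a * x = x * a) : a ∈ p3kT x.x12 x.x13 x.x23 := by
  obtain ⟨h1, h2, h3⟩ := mem_A0.mp ha
  have e02 := congrArg X.x02 hc
  have e24 := congrArg X.x24 hc
  have e03 := congrArg X.x03 hc
  have e14 := congrArg X.x14 hc
  simp only [X.mul_x02, X.mul_x24, X.mul_x03, X.mul_x14, h1, h2, h3, mul_zero, zero_mul,
    add_zero] at e02 e24 e03 e14
  unfold p3kT
  rw [Finset.mem_filter]
  refine ⟨Finset.mem_univ _, h1, h2, h3, ?_, ?_, ?_, ?_⟩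
  · exact p3k_cancel _ _ _ e02
  · exact p3k_cancel2 _ _ _ _ e03
  · exact p3k_cancel2 _ _ _ _ e14.symm
  · exact p3k_cancel _ _ _ e24.symm

theorem p3k_le (K : Subgroup X) (T : Finset X) (h : ∀ a ∈ K, a ∈ T) : Nat.card ↥K ≤ T.card := by
  calc Nat.card ↥K = (K : Set X).ncard := rfl
    _ ≤ (↑T : Set X).ncard := Set.ncard_le_ncard (fun a ha => h a ha) (Finset.finite_toSet T)
    _ = T.card := Set.ncard_coe_finset T

theorem p3k_mid : ∀ p q r p' q' r' : ZMod 2,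
    (p + p' = 0 ∧ r + r' = 0 ∧ q + p * r + q' + p * r' = 0) ↔ (p = p' ∧ r = r' ∧ q = q') := by
  decide

theorem p3k_inv_mul_mem (x y : X) :
    x⁻¹ * y ∈ A0 ↔ (x.x12 = y.x12 ∧ x.x23 = y.x23 ∧ x.x13 = y.x13) := by
  rw [mem_A0]
  simp only [X.mul_x12, X.mul_x23, X.mul_x13, X.inv_x12, X.inv_x23, X.inv_x13]
  exact p3k_mid _ _ _ _ _ _

theorem p3k1 (x : X) (hx : x ∉ A0) (K : Subgroup X) (hK : K ≤ A0) (hc : ∀ a ∈ K, a * x = x * a) :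
    Nat.card ↥K ≤ 16 :=
  (p3k_le K _ (fun a ha => p3k_mem x a (hK ha) (hc a ha))).trans
    (p3k_card1 _ _ _ (fun h => hx (mem_A0.mpr ⟨h.1, h.2.1, h.2.2⟩)))

theorem p3k2 (x y : X) (hx : x ∉ A0) (hy : y ∉ A0) (hxy : x⁻¹ * y ∉ A0) (K : Subgroup X) (hK : K ≤ A0)
    (hcx : ∀ a ∈ K, a * x = x * a) (hcy : ∀ a ∈ K, a * y = y * a) : Nat.card ↥K ≤ 8 :=
  (p3k_le K _ (fun a ha => Finset.mem_inter.mpr
    ⟨p3k_mem x a (hK ha) (hcx a ha), p3k_mem y a (hK ha) (hcy a ha)⟩)).trans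
    (p3k_card2 _ _ _ _ _ _ (fun h => hx (mem_A0.mpr ⟨h.1, h.2.1, h.2.2⟩))
      (fun h => hy (mem_A0.mpr ⟨h.1, h.2.1, h.2.2⟩))
      (fun h => hxy ((p3k_inv_mul_mem x y).mpr h)))

end Cfsg.Agent.Lib.Helper33.U5
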