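import Mathlib

/-! Ladder U5, rung QC: the central quotient is invariant under isomorphism. -/

set_option autoImplicit false

namespace Cfsg.Agent.Lib.Helper33.U5

theorem qc_map_center {Y Z : Type*} [Group Y] [Group Z] (e : Y ≃* Z) :
    (Subgroup.center Y).map (e : Y →* Z) = Subgroup.center Z := by
  ext z
  constructor
  · rintro ⟨y, hy, rfl⟩
    rw [Subgroup.mem_center_iff]
    intro g
    obtain ⟨g', rfl⟩ := e.surjective g
    have := (Subgroup.mem_center_iff.1 hy) g'
    change e g' * e y = e y * e g'
    rw [← map_mul, ← map_mul, this]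
  · intro hz
    refine ⟨e.symm z, ?_, by simp⟩
    change e.symm z ∈ Subgroup.center Y
    rw [Subgroup.mem_center_iff]
    intro g
    apply e.injective
    rw [map_mul, map_mul, e.apply_symm_apply]
    exact (Subgroup.mem_center_iff.1 hz) (e g)

theorem quotCenterCongr {Y Z : Type*} [Group Y] [Group Z] (e : Y ≃* Z) :
    Nonempty (Y ⧸ Subgroup.center Y ≃* Z ⧸ Subgroup.center Z) :=
  ⟨QuotientGroup.congr (Subgroup.center Y) (Subgroup.center Z) e (qc_map_center e)⟩

end Cfsg.Agent.Lib.Helper33.U5
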