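import Cfsg.Agent.Lib.Helper33.U5.Defs

/-! Ladder U5, rung QW: `W / Z(W) ≃* X`. -/

set_option autoImplicit false

namespace Cfsg.Agent.Lib.Helper33.U5

theorem qw_surj : Function.Surjective toX := fun a =>
  ⟨⟨a.x01, a.x12, a.x23, a.x34, a.x02, a.x13, a.x24, a.x03, a.x14, 0⟩, rfl⟩

theorem qw_cert : ∀ a : W,
    ((⟨1, 0, 0, 0, 0, 0, 0, 0, 0, 0⟩ : W) * a = a * ⟨1, 0, 0, 0, 0, 0, 0, 0, 0, 0⟩ ∧
     (⟨0, 1, 0, 0, 0, 0, 0, 0, 0, 0⟩ : W) * a = a * ⟨0, 1, 0, 0, 0, 0, 0, 0, 0, 0⟩ ∧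
     (⟨0, 0, 1, 0, 0, 0, 0, 0, 0, 0⟩ : W) * a = a * ⟨0, 0, 1, 0, 0, 0, 0, 0, 0, 0⟩ ∧
     (⟨0, 0, 0, 1, 0, 0, 0, 0, 0, 0⟩ : W) * a = a * ⟨0, 0, 0, 1, 0, 0, 0, 0, 0, 0⟩) →
      toX a = 1 := by
  decide +kernel

theorem qw_ker : toX.ker = Subgroup.center W := by
  ext a
  rw [MonoidHom.mem_ker, Subgroup.mem_center_iff]
  constructor
  · intro h g
    have h' := (X.ext_iff.1 h)
    obtain ⟨h1, h2, h3, h4, h5, h6, h7, h8, h9⟩ := h'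
    change a.x01 = 0 at h1
    change a.x12 = 0 at h2
    change a.x23 = 0 at h3
    change a.x34 = 0 at h4
    change a.x02 = 0 at h5
    change a.x13 = 0 at h6
    change a.x24 = 0 at h7
    change a.x03 = 0 at h8
    change a.x14 = 0 at h9
    ext <;> simp [h1, h2, h3, h4, h5, h6, h7, h8, h9] <;> ring
  · intro h
    exact qw_cert a ⟨h _, h _, h _, h _⟩

theorem quotW : Nonempty (W ⧸ Subgroup.center W ≃* X) :=
  ⟨(QuotientGroup.quotientMulEquivOfEq qw_ker.symm).trans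
    (QuotientGroup.quotientKerEquivOfSurjective toX qw_surj)⟩

end Cfsg.Agent.Lib.Helper33.U5
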