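import Cfsg.Agent.Lib.Helper33.U5.Defs

set_option autoImplicit false

namespace Cfsg.Agent.Lib.Helper33.U5

theorem tr_comm {Y Z : Type*} [Group Y] [Group Z] (e : Y ≃* Z) (A : Subgroup Y)
    (h : IsMulCommutative ↥A) : IsMulCommutative ↥(A.map e.toMonoidHom) := by
  refine ⟨⟨?_⟩⟩
  rintro ⟨x, a, ha, rfl⟩ ⟨y, b, hb, rfl⟩
  apply Subtype.ext
  show e a * e b = e b * e a
  have h1 : (⟨a, ha⟩ : A) * ⟨b, hb⟩ = ⟨b, hb⟩ * ⟨a, ha⟩ := h.is_comm.comm _ _
  have h2 : a * b = b * a := congrArg Subtype.val h1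
  rw [← map_mul, ← map_mul, h2]

theorem tr_card {Y Z : Type*} [Group Y] [Group Z] (e : Y ≃* Z) (A : Subgroup Y) :
    Nat.card ↥(A.map e.toMonoidHom) = Nat.card ↥A :=
  Nat.card_congr (e.subgroupMap A).toEquiv.symm

/-- TR: transport of `Phi` along an isomorphism -/
theorem Phi.congr {Y Z : Type*} [Group Y] [Group Z] (e : Y ≃* Z) (h : Phi Y) : Phi Z := by
  obtain ⟨h1, ⟨A, ⟨hA1, hA2⟩, hA3⟩, h3⟩ := h
  refine ⟨fun M hM => ?_, ⟨A.map e.toMonoidHom, ⟨tr_comm e A hA1, ?_⟩, ?_⟩, fun A' B' a1 a2 b1 b2 => ?_⟩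
  · have hco : IsCoatom (M.map e.symm.toMonoidHom) :=
      (OrderIso.isCoatom_iff (MulEquiv.mapSubgroup e.symm) M).2 hM
    have := h1 _ hco
    have h2 : Nat.card ↥(Subgroup.center ↥M) =
        Nat.card ↥(Subgroup.center ↥(M.map e.symm.toMonoidHom)) :=
      Nat.card_congr (Subgroup.centerCongr (e.symm.subgroupMap M)).toEquiv
    rw [h2]; exact this
  · rintro x ⟨a, ha, rfl⟩
    show (e a) ^ 2 = 1
    rw [← map_pow, hA2 a ha, map_one]
  · rw [tr_card, hA3]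
  · have := h3 (A'.map e.symm.toMonoidHom) (B'.map e.symm.toMonoidHom) (tr_comm e.symm A' a1)
      (by rw [tr_card, a2]) (tr_comm e.symm B' b1) (by rw [tr_card, b2])
    exact Subgroup.map_injective e.symm.injective this

end Cfsg.Agent.Lib.Helper33.U5
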